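import Cfsg.Agent.Comp.U34V12.Chk0

set_option autoImplicit false
set_option maxRecDepth 100000
set_option Elab.async false

namespace Cfsg.Agent.Comp.U34V12

theorem hs : ∀ j, j < J.N' → J.slpAt j = true := (range_step (lo := 0) 13 range_start s0)

theorem chain2 {Γ X : Type*} [Group Γ] [MulAction Γ X] {T : Lst X J.n} {gen : ℕ → Γ} {A : Subgroup Γ} (h : J.Model T gen A) : ChainOK h.M J.E (J.el gen) [] := trivial

theorem chain1 {Γ X : Type*} [Group Γ] [MulAction Γ X] {T : Lst X J.n} {gen : ℕ → Γ} {A : Subgroup Γ} (h : J.Model T gen A) : ChainOK h.M J.E (J.el gen) [L1] :=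
  h.chain_cons hs (chain2 h) l1 (range_step (lo := 0) 75 range_start q1_0)

theorem chain0 {Γ X : Type*} [Group Γ] [MulAction Γ X] {T : Lst X J.n} {gen : ℕ → Γ} {A : Subgroup Γ} (h : J.Model T gen A) : ChainOK h.M J.E (J.el gen) [L0, L1] :=
  h.chain_cons hs (chain1 h) l0 (range_step (lo := 0) 832 range_start q0_0)

theorem GpL_eq {Γ : Type*} [Group Γ] (gen : ℕ → Γ) : GpL (J.el gen) [L0, L1] = J.G gen := Job.GpL_top rfl rfl

theorem card {Γ X : Type*} [Group Γ] [MulAction Γ X] {T : Lst X J.n} {gen : ℕ → Γ} {A : Subgroup Γ} (h : J.Model T gen A) : Nat.card (J.G gen) = 62400 := by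
  rw [← GpL_eq, (chain0 h).card]; rfl

theorem finite {Γ X : Type*} [Group Γ] [MulAction Γ X] {T : Lst X J.n} {gen : ℕ → Γ} {A : Subgroup Γ} (h : J.Model T gen A) : Finite (J.G gen) := by
  rw [← GpL_eq]; exact (chain0 h).finite

theorem ctx {Γ X : Type*} [Group Γ] [MulAction Γ X] {T : Lst X J.n} {gen : ℕ → Γ} {A : Subgroup Γ} (h : J.Model T gen A) : Ctx h.M J.E (J.el gen) [L0, L1] R :=
  h.ctx hs (chain0 h) rfl rfl rp

theorem cov20 {Γ X : Type*} [Group Γ] [MulAction Γ X] {T : Lst X J.n} {gen : ℕ → Γ} {A : Subgroup Γ} (h : J.Model T gen A) : Cov h.M (J.el gen) [L0, L1] R [nat_lit 6384] :=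
  cov_full (ctx h) n20

theorem cov19 {Γ X : Type*} [Group Γ] [MulAction Γ X] {T : Lst X J.n} {gen : ℕ → Γ} {A : Subgroup Γ} (h : J.Model T gen A) : Cov h.M (J.el gen) [L0, L1] R [nat_lit 6398] :=
  cov_full (ctx h) n19

theorem cov18 {Γ X : Type*} [Group Γ] [MulAction Γ X] {T : Lst X J.n} {gen : ℕ → Γ} {A : Subgroup Γ} (h : J.Model T gen A) : Cov h.M (J.el gen) [L0, L1] R [nat_lit 6286] :=
  cov_full (ctx h) n18

theorem cov17 {Γ X : Type*} [Group Γ] [MulAction Γ X] {T : Lst X J.n} {gen : ℕ → Γ} {A : Subgroup Γ} (h : J.Model T gen A) : Cov h.M (J.el gen) [L0, L1] R [nat_lit 1694] :=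
  cov_full (ctx h) n17

theorem cov16 {Γ X : Type*} [Group Γ] [MulAction Γ X] {T : Lst X J.n} {gen : ℕ → Γ} {A : Subgroup Γ} (h : J.Model T gen A) : Cov h.M (J.el gen) [L0, L1] R [nat_lit 4690] :=
  cov_full (ctx h) n16

theorem cov15 {Γ X : Type*} [Group Γ] [MulAction Γ X] {T : Lst X J.n} {gen : ℕ → Γ} {A : Subgroup Γ} (h : J.Model T gen A) : Cov h.M (J.el gen) [L0, L1] R [nat_lit 1092] :=
  cov_full (ctx h) n15

theorem cov14 {Γ X : Type*} [Group Γ] [MulAction Γ X] {T : Lst X J.n} {gen : ℕ → Γ} {A : Subgroup Γ} (h : J.Model T gen A) : Cov h.M (J.el gen) [L0, L1] R [nat_lit 2506] :=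
  cov_full (ctx h) n14

theorem cov13 {Γ X : Type*} [Group Γ] [MulAction Γ X] {T : Lst X J.n} {gen : ℕ → Γ} {A : Subgroup Γ} (h : J.Model T gen A) : Cov h.M (J.el gen) [L0, L1] R [nat_lit 3654] :=
  cov_full (ctx h) n13

theorem cov12 {Γ X : Type*} [Group Γ] [MulAction Γ X] {T : Lst X J.n} {gen : ℕ → Γ} {A : Subgroup Γ} (h : J.Model T gen A) : Cov h.M (J.el gen) [L0, L1] R [nat_lit 9842] :=
  cov_full (ctx h) n12

theorem cov11 {Γ X : Type*} [Group Γ] [MulAction Γ X] {T : Lst X J.n} {gen : ℕ → Γ} {A : Subgroup Γ} (h : J.Model T gen A) : Cov h.M (J.el gen) [L0, L1] R [nat_lit 5614] :=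
  cov_full (ctx h) n11

theorem cov10 {Γ X : Type*} [Group Γ] [MulAction Γ X] {T : Lst X J.n} {gen : ℕ → Γ} {A : Subgroup Γ} (h : J.Model T gen A) : Cov h.M (J.el gen) [L0, L1] R [nat_lit 3780] :=
  cov_full (ctx h) n10

theorem cov9 {Γ X : Type*} [Group Γ] [MulAction Γ X] {T : Lst X J.n} {gen : ℕ → Γ} {A : Subgroup Γ} (h : J.Model T gen A) : Cov h.M (J.el gen) [L0, L1] R [nat_lit 7896] :=
  cov_full (ctx h) n9

theorem cov8 {Γ X : Type*} [Group Γ] [MulAction Γ X] {T : Lst X J.n} {gen : ℕ → Γ} {A : Subgroup Γ} (h : J.Model T gen A) : Cov h.M (J.el gen) [L0, L1] R [nat_lit 6762] :=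
  cov_full (ctx h) n8

theorem cov7 {Γ X : Type*} [Group Γ] [MulAction Γ X] {T : Lst X J.n} {gen : ℕ → Γ} {A : Subgroup Γ} (h : J.Model T gen A) : Cov h.M (J.el gen) [L0, L1] R [nat_lit 3822] :=
  cov_full (ctx h) n7

theorem cov6 {Γ X : Type*} [Group Γ] [MulAction Γ X] {T : Lst X J.n} {gen : ℕ → Γ} {A : Subgroup Γ} (h : J.Model T gen A) : Cov h.M (J.el gen) [L0, L1] R [nat_lit 1736] :=
  cov_full (ctx h) n6

theorem cov5 {Γ X : Type*} [Group Γ] [MulAction Γ X] {T : Lst X J.n} {gen : ℕ → Γ} {A : Subgroup Γ} (h : J.Model T gen A) : Cov h.M (J.el gen) [L0, L1] R [nat_lit 4662] :=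
  cov_full (ctx h) n5

theorem cov4 {Γ X : Type*} [Group Γ] [MulAction Γ X] {T : Lst X J.n} {gen : ℕ → Γ} {A : Subgroup Γ} (h : J.Model T gen A) : Cov h.M (J.el gen) [L0, L1] R [nat_lit 154] :=
  cov_full (ctx h) n4

theorem cov3 {Γ X : Type*} [Group Γ] [MulAction Γ X] {T : Lst X J.n} {gen : ℕ → Γ} {A : Subgroup Γ} (h : J.Model T gen A) : Cov h.M (J.el gen) [L0, L1] R [nat_lit 238] :=
  cov_full (ctx h) n3

theorem cov2 {Γ X : Type*} [Group Γ] [MulAction Γ X] {T : Lst X J.n} {gen : ℕ → Γ} {A : Subgroup Γ} (h : J.Model T gen A) : Cov h.M (J.el gen) [L0, L1] R [nat_lit 28] :=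
  cov_full (ctx h) n2

theorem cov1 {Γ X : Type*} [Group Γ] [MulAction Γ X] {T : Lst X J.n} {gen : ℕ → Γ} {A : Subgroup Γ} (h : J.Model T gen A) : Cov h.M (J.el gen) [L0, L1] R [nat_lit 0] :=
  cov_full (ctx h) n1

theorem cov0 {Γ X : Type*} [Group Γ] [MulAction Γ X] {T : Lst X J.n} {gen : ℕ → Γ} {A : Subgroup Γ} (h : J.Model T gen A) : Cov h.M (J.el gen) [L0, L1] R [] :=
  cov_red (ctx h) h.hAV n0 (forall_mem_cons' (cov1 h) (forall_mem_cons' (cov2 h) (forall_mem_cons' (cov3 h) (forall_mem_cons' (cov4 h) (forall_mem_cons' (cov5 h) (forall_mem_cons' (cov6 h) (forall_mem_cons' (cov7 h) (forall_mem_cons' (cov8 h) (forall_mem_cons' (cov9 h) (forall_mem_cons' (cov10 h) (forall_mem_cons' (cov11 h) (forall_mem_cons' (cov12 h) (forall_mem_cons' (cov13 h) (forall_mem_cons' (cov14 h) (forall_mem_cons' (cov15 h) (forall_mem_cons' (cov16 h) (forall_mem_cons' (cov17 h) (forall_mem_cons' (cov18 h) (forall_mem_cons'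 (cov19 h) (forall_mem_cons' (cov20 h) forall_mem_nil'))))))))))))))))))))

theorem classes {Γ X : Type*} [Group Γ] [MulAction Γ X] {T : Lst X J.n} {gen : ℕ → Γ} {A : Subgroup Γ} (h : J.Model T gen A) : ∀ g ∈ J.G gen, ∃ j, j < 22 ∧ ∃ c ∈ J.G gen, c * g = R.x (J.el gen) j * c := by
  rw [← GpL_eq]; exact (cov0 h).all

theorem ords {Γ X : Type*} [Group Γ] [MulAction Γ X] {T : Lst X J.n} {gen : ℕ → Γ} {A : Subgroup Γ} (h : J.Model T gen A) : ∀ j, j < 22 → orderOf (R.x (J.el gen) j) = nth os j :=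
  specChk_ord (ctx h) sp

theorem spec {Γ X : Type*} [Group Γ] [MulAction Γ X] {T : Lst X J.n} {gen : ℕ → Γ} {A : Subgroup Γ} (h : J.Model T gen A) : Set.range (orderOf : J.G gen → ℕ) = {n | n ∈ [1, 2, 3, 4, 5, 10, 13, 15]} := by
  rw [← GpL_eq]; exact spec_of_chk (ctx h) (cov0 h) sp

end Cfsg.Agent.Comp.U34V12
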